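import Mathlib.NumberTheory.NumberField.Cyclotomic.Basic
import Mathlib.FieldTheory.Finite.Basic
import Mathlib.Analysis.Complex.Polynomial.Basic

/-!
# S4933, part (O), Lemma B (plan `S4933_O.md`, helper37)

`ζ` a primitive `p ^ m`-th root of unity, `κ = 1 + p ^ (m - 1) * u`, `p ∤ u`. If `∑ ζ ^ k ≡ ∑ ζ ^ (κ * k)` modulo `p`, then
for every `r` prime to `p` the number of the `k` congruent to `r` modulo `p ^ (m - 1)` is divisible by `p` (`p` odd), and the
sum of their quotients `k / p ^ (m - 1)` is divisible by `p` (`5 ≤ p`).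

* `func_eq` : functionals on `ℤ[ζ] / p`;
* `count_dvd`, `sum_dvd`.
-/

set_option autoImplicit false

namespace Cfsg.Agent.H234.HT

open Polynomial Finset

theorem exists_poly_aux {p m : ℕ} [hp : Fact p.Prime] {K : Type} [Field K] [CharZero K]
    [hcyc : IsCyclotomicExtension {p ^ m} ℚ K] (φ : K →ₐ[ℚ] ℂ) {ζ : ℂ} (hζ : IsPrimitiveRoot ζ (p ^ m)) {P : ℤ[X]}
    {z : ℂ} (hz : IsIntegral ℤ z) (h : aeval ζ P = (p : ℂ) * z) : ∃ G : ℤ[X], aeval ζ G = z := by
  classical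
  have : NeZero (p ^ m) := ⟨pow_ne_zero _ hp.out.ne_zero⟩
  have hp0 : (p : ℂ) ≠ 0 := Nat.cast_ne_zero.2 hp.out.ne_zero
  have hφ : Function.Injective φ := φ.toRingHom.injective
  have hζ0 := IsCyclotomicExtension.zeta_spec (p ^ m) ℚ K
  have h1 : IsPrimitiveRoot (φ (IsCyclotomicExtension.zeta (p ^ m) ℚ K)) (p ^ m) :=
    hζ0.map_of_injective (f := φ) hφ
  obtain ⟨k, _, hk⟩ := h1.eq_pow_of_pow_eq_one hζ.pow_eq_one
  set ξ : K := (IsCyclotomicExtension.zeta (p ^ m) ℚ K) ^ k with hξdef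
  have hξ : φ ξ = ζ := by rw [hξdef, map_pow, hk]
  have hξp : IsPrimitiveRoot ξ (p ^ m) := (IsPrimitiveRoot.map_iff_of_injective (f := φ) hφ).1 (by rw [hξ]; exact hζ)
  have hav : ∀ Q : ℤ[X], φ (aeval ξ Q) = aeval ζ Q := by
    intro Q
    have := Polynomial.aeval_algHom_apply (φ.restrictScalars ℤ) ξ Q
    rw [← hξ]
    exact this.symm
  have hw : φ ((p : K)⁻¹ * aeval ξ P) = z := by
    rw [map_mul, map_inv₀, map_natCast, hav, h, inv_mul_cancel_left₀ hp0]
  set w := (p : K)⁻¹ * aeval ξ P with hwdef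
  have hwi : IsIntegral ℤ w := by
    have h2 : IsIntegral ℤ ((φ.restrictScalars ℤ) w) := by
      show IsIntegral ℤ (φ w)
      rw [hw]
      exact hz
    exact (isIntegral_algHom_iff (φ.restrictScalars ℤ) hφ).1 h2
  obtain ⟨y, hy⟩ :=
    ((IsCyclotomicExtension.Rat.isIntegralClosure_adjoin_singleton_of_prime_pow hξp).isIntegral_iff).1 hwi
  have hy2 : (y : K) ∈ (aeval (R := ℤ) ξ).range := by
    have h9 : (y : K) ∈ Algebra.adjoin ℤ {ξ} := y.2
    exact (Algebra.adjoin_singleton_eq_range_aeval ℤ ξ) ▸ h9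
  obtain ⟨G, hG⟩ := hy2
  refine ⟨G, ?_⟩
  rw [← hav, ← hw]
  congr 1
  rw [← hy]
  exact hG

/-- an integral element `P(ζ) / p` is a value `G(ζ)` -/
theorem exists_poly {p m : ℕ} [hp : Fact p.Prime] {ζ : ℂ} (hζ : IsPrimitiveRoot ζ (p ^ m)) {P : ℤ[X]}
    {z : ℂ} (hz : IsIntegral ℤ z) (h : aeval ζ P = (p : ℂ) * z) : ∃ G : ℤ[X], aeval ζ G = z := by
  have : NeZero (p ^ m) := ⟨pow_ne_zero _ hp.out.ne_zero⟩
  have : NeZero ((p ^ m : ℕ) : ℚ) := ⟨Nat.cast_ne_zero.2 (pow_ne_zero _ hp.out.ne_zero)⟩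
  let φ : CyclotomicField (p ^ m) ℚ →+* ℂ := (IsAlgClosed.lift : CyclotomicField (p ^ m) ℚ →ₐ[ℚ] ℂ).toRingHom
  have hcyc : @IsCyclotomicExtension {p ^ m} ℚ (CyclotomicField (p ^ m) ℚ) _ _ DivisionRing.toRatAlgebra := by
    have h1 := CyclotomicField.isCyclotomicExtension (p ^ m) ℚ
    have h2 : CyclotomicField.algebra (p ^ m) ℚ =
        (DivisionRing.toRatAlgebra : Algebra ℚ (CyclotomicField (p ^ m) ℚ)) :=
      Subsingleton.elim _ _
    rw [← h2]
    exact h1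
  exact exists_poly_aux (hcyc := hcyc) φ.toRatAlgHom hζ hz h

/-- the functional `X ^ k ↦ f k` -/
noncomputable def L {p : ℕ} (f : ℕ → ZMod p) : ℤ[X] →ₗ[ℤ] ZMod p :=
  Polynomial.lsum fun k => LinearMap.toSpanSingleton ℤ (ZMod p) (f k)

theorem L_monomial {p : ℕ} (f : ℕ → ZMod p) (k : ℕ) (a : ℤ) : L f (monomial k a) = a • f k := by
  rw [L, Polynomial.lsum_apply, Polynomial.sum_monomial_index]
  · rfl
  · exact map_zero _

theorem L_X_pow {p : ℕ} (f : ℕ → ZMod p) (k : ℕ) : L f (X ^ k) = f k := by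
  rw [← monomial_one_right_eq_X_pow, L_monomial, one_smul]

theorem L_cyclotomic {p : ℕ} [hp : Fact p.Prime] {n : ℕ} {f : ℕ → ZMod p}
    (hf : ∀ j, ∑ i ∈ range p, f (j + i * p ^ n) = 0) (G : ℤ[X]) : L f (cyclotomic (p ^ (n + 1)) ℤ * G) = 0 := by
  induction G using Polynomial.induction_on' with
  | add P Q hP hQ => rw [mul_add, map_add, hP, hQ, add_zero]
  | monomial j a =>
    rw [cyclotomic_prime_pow_eq_geom_sum hp.out, Finset.sum_mul, map_sum]
    have h1 : ∀ i ∈ range p, L f ((X ^ p ^ n) ^ i * monomial j a) = a • f (j + i * p ^ n) := by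
      intro i _
      rw [← pow_mul, X_pow_mul_monomial, L_monomial, mul_comm (p ^ n) i]
    rw [Finset.sum_congr rfl h1, ← Finset.smul_sum, hf, smul_zero]

/-- **functionals on `ℤ[ζ] / p`** -/
theorem func_eq {p n : ℕ} [hp : Fact p.Prime] {ζ : ℂ} (hζ : IsPrimitiveRoot ζ (p ^ (n + 1))) {f : ℕ → ZMod p}
    (hf : ∀ j, ∑ i ∈ range p, f (j + i * p ^ n) = 0) {ι κ : Type*} (s : Finset ι) (t : Finset κ) (k : ι → ℕ) (l : κ → ℕ)
    {z : ℂ} (hz : IsIntegral ℤ z) (h : ∑ i ∈ s, ζ ^ k i - ∑ i ∈ t, ζ ^ l i = (p : ℂ) * z) :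
    ∑ i ∈ s, f (k i) = ∑ i ∈ t, f (l i) := by
  have hpos : 0 < p ^ (n + 1) := pow_pos hp.out.pos _
  obtain ⟨G, hG⟩ := exists_poly hζ (P := ∑ i ∈ s, X ^ k i - ∑ i ∈ t, X ^ l i) hz (by
    rw [← h, map_sub, map_sum, map_sum]
    simp only [map_pow, aeval_X])
  have h1 : aeval ζ (∑ i ∈ s, X ^ k i - ∑ i ∈ t, X ^ l i - (p : ℤ) • G : ℤ[X]) = 0 := by
    rw [map_sub, map_sub, map_sum, map_sum, map_smul, hG]
    simp only [map_pow, aeval_X]
    rw [h, zsmul_eq_mul, Int.cast_natCast, sub_self]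
  have h2 := minpoly.isIntegrallyClosed_dvd (hζ.isIntegral hpos) h1
  rw [← cyclotomic_eq_minpoly hζ hpos] at h2
  obtain ⟨Q, hQ⟩ := h2
  have h3 := L_cyclotomic hf Q
  rw [← hQ, map_sub, map_sub, map_sum, map_sum, map_smul] at h3
  simp only [L_X_pow] at h3
  rw [zsmul_eq_mul, Int.cast_natCast, CharP.cast_eq_zero, zero_mul, sub_zero, sub_eq_zero] at h3
  exact h3

theorem sum_range_zmod {p : ℕ} [NeZero p] {M : Type*} [AddCommMonoid M] (g : ZMod p → M) (c : ZMod p) :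
    ∑ i ∈ range p, g (c + (i : ZMod p)) = ∑ x : ZMod p, g x := by
  rw [← Equiv.sum_comp (Equiv.addLeft c) g]
  refine Finset.sum_nbij' (fun i => (i : ZMod p)) ZMod.val (fun _ _ => mem_univ _)
    (fun x _ => mem_range.2 x.val_lt) (fun i hi => ZMod.val_cast_of_lt (mem_range.1 hi))
    (fun x _ => ZMod.natCast_zmod_val x) (fun i _ => rfl)

/-- the functional of degree `d` at the class of `r` -/
def fn (p q r d : ℕ) (k : ℕ) : ZMod p := if k % q = r % q then ((k / q : ℕ) : ZMod p) ^ d else 0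

theorem fn_sum {p : ℕ} [hp : Fact p.Prime] {q : ℕ} (hq : 0 < q) (r : ℕ) {d : ℕ} (hd : d < p - 1) (j : ℕ) :
    ∑ i ∈ range p, fn p q r d (j + i * q) = 0 := by
  have : NeZero p := ⟨hp.out.ne_zero⟩
  have h1 : ∀ i : ℕ, fn p q r d (j + i * q) = if j % q = r % q then (((j / q : ℕ) : ZMod p) + (i : ZMod p)) ^ d else 0 := by
    intro i
    rw [fn, Nat.add_mul_mod_self_right, Nat.add_mul_div_right _ _ hq, Nat.cast_add]
  simp only [h1]
  split_ifs with h
  · rw [sum_range_zmod (fun x => x ^ d)]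
    have h2 := FiniteField.sum_pow_lt_card_sub_one (K := ZMod p) d (by rwa [ZMod.card])
    exact h2
  · exact Finset.sum_const_zero

section

variable {p n : ℕ} [hp : Fact p.Prime] {ζ : ℂ} (hζ : IsPrimitiveRoot ζ (p ^ (n + 1))) (hn : 1 ≤ n) {u : ℕ} (hu : ¬ p ∣ u)
  {ι : Type*} (s : Finset ι) (k : ι → ℕ) {z : ℂ} (hz : IsIntegral ℤ z)
  (h : ∑ i ∈ s, ζ ^ k i - ∑ i ∈ s, ζ ^ ((1 + p ^ n * u) * k i) = (p : ℂ) * z)

include hn in
theorem fn_twist (r d j : ℕ) : fn p (p ^ n) r d ((1 + p ^ n * u) * j) =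
    if j % p ^ n = r % p ^ n then (((j / p ^ n : ℕ) : ZMod p) + (u * r : ℕ)) ^ d else 0 := by
  have hq : 0 < p ^ n := pow_pos hp.out.pos _
  have e : (1 + p ^ n * u) * j = j + (u * j) * p ^ n := by ring
  rw [fn, e, Nat.add_mul_mod_self_right, Nat.add_mul_div_right _ _ hq, Nat.cast_add]
  split_ifs with h1
  · have h2 : ((j : ℕ) : ZMod p) = ((r : ℕ) : ZMod p) := by
      rw [ZMod.natCast_eq_natCast_iff]
      have h3 : j ≡ r [MOD p ^ n] := h1
      exact h3.of_dvd (dvd_pow_self p (by omega))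
    rw [Nat.cast_mul, Nat.cast_mul, h2]
  · rfl

include hζ hn hu hz h in
/-- **the number of the `k` in a class** -/
theorem count_dvd (hp2 : p ≠ 2) {r : ℕ} (hr : ¬ p ∣ r) : p ∣ (s.filter fun i => k i % p ^ n = r % p ^ n).card := by
  have hq : 0 < p ^ n := pow_pos hp.out.pos _
  have hp3 : 3 ≤ p := by have := hp.out.two_le; omega
  have h1 := func_eq hζ (f := fn p (p ^ n) r 1) (fn_sum hq r (by omega)) s s k (fun i => (1 + p ^ n * u) * k i) hz h
  simp only [fn_twist hn] at h1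
  simp only [fn, pow_one] at h1
  rw [← Finset.sum_filter, ← Finset.sum_filter, Finset.sum_add_distrib, left_eq_add, Finset.sum_const, nsmul_eq_mul] at h1
  rcases mul_eq_zero.1 h1 with h2 | h2
  · exact (ZMod.natCast_eq_zero_iff _ _).1 h2
  · rw [ZMod.natCast_eq_zero_iff] at h2
    rcases (hp.out.dvd_mul).1 h2 with h3 | h3
    · exact absurd h3 hu
    · exact absurd h3 hr

include hζ hn hu hz h in
/-- **the sum of the quotients in a class** -/
theorem sum_dvd (hp5 : 5 ≤ p) {r : ℕ} (hr : ¬ p ∣ r) :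
    p ∣ ∑ i ∈ s.filter (fun i => k i % p ^ n = r % p ^ n), k i / p ^ n := by
  have hq : 0 < p ^ n := pow_pos hp.out.pos _
  have h0 := count_dvd hζ hn hu s k hz h (by omega) hr
  have h1 := func_eq hζ (f := fn p (p ^ n) r 2) (fn_sum hq r (by omega)) s s k (fun i => (1 + p ^ n * u) * k i) hz h
  simp only [fn_twist hn] at h1
  simp only [fn] at h1
  rw [← Finset.sum_filter, ← Finset.sum_filter] at h1
  simp only [add_sq] at h1
  rw [Finset.sum_add_distrib, Finset.sum_add_distrib, add_assoc, left_eq_add, Finset.sum_const, nsmul_eq_mul,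
    (ZMod.natCast_eq_zero_iff _ _).2 h0, zero_mul, add_zero, ← Finset.sum_mul, ← Finset.mul_sum] at h1
  have hur : ((u * r : ℕ) : ZMod p) ≠ 0 := by
    intro h2
    rw [ZMod.natCast_eq_zero_iff] at h2
    rcases (hp.out.dvd_mul).1 h2 with h3 | h3
    · exact hu h3
    · exact hr h3
  have h2 := (mul_eq_zero.1 h1).resolve_right hur
  have h3 : (2 : ZMod p) ≠ 0 := by
    intro h4
    have h5 : ((2 : ℕ) : ZMod p) = 0 := by exact_mod_cast h4
    rw [ZMod.natCast_eq_zero_iff] at h5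
    have := Nat.le_of_dvd (by norm_num) h5
    omega
  have h4 := (mul_eq_zero.1 h2).resolve_left h3
  rw [← Nat.cast_sum, ZMod.natCast_eq_zero_iff] at h4
  exact h4

end

end Cfsg.Agent.H234.HT
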