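import Cfsg.Agent.H37.HT.Fd
import Cfsg.Agent.H234.HT.LemB
import Cfsg.Agent.H234.HT.Kappa
import Mathlib.RingTheory.RootsOfUnity.AlgebraicallyClosed
import Mathlib.GroupTheory.Sylow
import Mathlib.Analysis.Complex.Polynomial.Basic

/-!
# S4933, part (O), box O.num (helper234)

`exists_fd` : from the eigenvalues (`ED`) and the element (`EY`) to the class function (`FD`) with `Test`.
-/

set_option autoImplicit false

open Subgroup

namespace Cfsg.Agent.H234.HT

open Cfsg Cfsg.Agent.H37.HT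

universe u v

section iota

variable {K : Type v} [Field K] {N : ℕ} (θ : rootsOfUnity N K ≃* rootsOfUnity N ℂ)

open Classical in
/-- the lift of the `N`-th roots of unity -/
noncomputable def iota (a : K) : ℂ :=
  if h : ∃ u : rootsOfUnity N K, ((u : Kˣ) : K) = a then ((θ h.choose : ℂˣ) : ℂ) else 0

theorem iota_coe (u : rootsOfUnity N K) : iota θ ((u : Kˣ) : K) = ((θ u : ℂˣ) : ℂ) := by
  have h : ∃ w : rootsOfUnity N K, ((w : Kˣ) : K) = ((u : Kˣ) : K) := ⟨u, rfl⟩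
  rw [iota, dif_pos h]
  have h1 : h.choose = u := Subtype.ext (Units.ext h.choose_spec)
  rw [h1]

theorem exists_root {a : K} (hN : N ≠ 0) (ha : a ^ N = 1) : ∃ u : rootsOfUnity N K, ((u : Kˣ) : K) = a :=
  ⟨⟨Units.ofPowEqOne a N ha hN, by
    rw [mem_rootsOfUnity]
    exact Units.pow_ofPowEqOne ha hN⟩, rfl⟩

theorem iota_pow {a : K} (hN : N ≠ 0) (ha : a ^ N = 1) (k : ℕ) : iota θ (a ^ k) = iota θ a ^ k := by
  obtain ⟨u, rfl⟩ := exists_root hN ha
  have h1 : ((u : Kˣ) : K) ^ k = (((u ^ k : rootsOfUnity N K) : Kˣ) : K) := by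
    rw [Subgroup.coe_pow, Units.val_pow_eq_pow_val]
  rw [h1, iota_coe, iota_coe, map_pow, Subgroup.coe_pow, Units.val_pow_eq_pow_val]

theorem iota_prim {a : K} (hN : N ≠ 0) {n : ℕ} (hn : n ∣ N) (ha : IsPrimitiveRoot a n) :
    IsPrimitiveRoot (iota θ a) n := by
  obtain ⟨c, hc⟩ := hn
  obtain ⟨u, rfl⟩ := exists_root hN (show a ^ N = 1 by rw [hc, pow_mul, ha.pow_eq_one, one_pow])
  rw [iota_coe]
  have h1 : IsPrimitiveRoot u n := by
    rw [← IsPrimitiveRoot.coe_submonoidClass_iff, ← IsPrimitiveRoot.coe_units_iff]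
    exact ha
  have h2 : IsPrimitiveRoot (θ u) n := h1.map_of_injective (f := θ) θ.injective
  rw [← IsPrimitiveRoot.coe_submonoidClass_iff, ← IsPrimitiveRoot.coe_units_iff] at h2
  exact h2

end iota

section

variable {p r f : ℕ} {S : Type u} [Group S] {K : Type v} [Field K]

theorem IsP.pow {x : S} (hx : IsP p x) (k : ℕ) : IsP p (x ^ k) := by
  obtain ⟨n, hn⟩ := hx
  exact ⟨n, by rw [← pow_mul, mul_comm, pow_mul, hn, one_pow]⟩

theorem isP_conj {x : S} (g : S) : IsP p (g * x * g⁻¹) ↔ IsP p x := by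
  constructor
  · rintro ⟨n, hn⟩
    refine ⟨n, ?_⟩
    rw [conj_pow, mul_inv_eq_one] at hn
    exact mul_left_cancel (hn.trans (mul_one g).symm)
  · rintro ⟨n, hn⟩
    exact ⟨n, by rw [conj_pow, hn, mul_one, mul_inv_cancel]⟩

theorem exists_sylow [Finite S] {x : S} (hx : IsP p x) : ∃ P : Sylow p S, x ∈ (P : Subgroup S) := by
  have h1 : IsPGroup p (zpowers x) := by
    rintro ⟨g, hg⟩
    obtain ⟨i, rfl⟩ := Subgroup.mem_zpowers_iff.1 hg
    obtain ⟨n, hn⟩ := hx
    refine ⟨n, Subtype.ext ?_⟩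
    show (x ^ i) ^ p ^ n = 1
    rw [← zpow_natCast, ← zpow_mul, mul_comm, zpow_mul, zpow_natCast, hn, one_zpow]
  obtain ⟨P, hP⟩ := h1.exists_le_sylow
  exact ⟨P, hP (Subgroup.mem_zpowers x)⟩

theorem E_pow [Finite S] (E : ED p r f S K) {x : S} (hx : IsP p x) (k : ℕ) :
    E.E (x ^ k) = (E.E x).map fun a => a ^ k := by
  obtain ⟨P, hP⟩ := exists_sylow hx
  obtain ⟨n, l, hl⟩ := E.lin P
  have h1 := hl ⟨x, hP⟩
  have h2 := hl (⟨x, hP⟩ ^ k)
  change E.E x = _ at h1
  change E.E (x ^ k) = _ at h2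
  rw [h1, h2, Multiset.map_map]
  refine Multiset.map_congr rfl fun i _ => ?_
  simp only [map_pow, Units.val_pow_eq_pow_val, Function.comp_apply]

theorem E_root [Finite S] [Fact p.Prime] (E : ED p r f S K) {x : S} (hx : IsP p x) {N : ℕ}
    (hN : p ^ (Nat.card S).factorization p ∣ N) {a : K} (ha : a ∈ E.E x) : a ^ N = 1 := by
  obtain ⟨P, hP⟩ := exists_sylow hx
  obtain ⟨n, l, hl⟩ := E.lin P
  have h1 := hl ⟨x, hP⟩
  change E.E x = _ at h1
  rw [h1, Multiset.mem_map] at ha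
  obtain ⟨i, -, rfl⟩ := ha
  have h2 : (⟨x, hP⟩ : (P : Subgroup S)) ^ N = 1 := by
    obtain ⟨c, rfl⟩ := hN
    rw [pow_mul, ← Sylow.card_eq_multiplicity P, pow_card_eq_one', one_pow]
  rw [← Units.val_pow_eq_pow_val, ← map_pow, h2, map_one, Units.val_one]

/-- the sum of the lifts -/
noncomputable def Fs (E : S → Multiset K) {N : ℕ} (θ : rootsOfUnity N K ≃* rootsOfUnity N ℂ) (x : S) : ℂ :=
  ((E x).map (iota θ)).sum

open Classical in
/-- the class function -/
noncomputable def FF (p : ℕ) (E : S → Multiset K) {N : ℕ} (θ : rootsOfUnity N K ≃* rootsOfUnity N ℂ) (x : S) : ℂ :=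
  if IsP p x then Fs E θ x else 0

theorem FF_of {E : S → Multiset K} {N : ℕ} {θ : rootsOfUnity N K ≃* rootsOfUnity N ℂ} {x : S} (hx : IsP p x) :
    FF p E θ x = Fs E θ x := if_pos hx

/-- the datum -/
noncomputable def fd [Finite S] [hp : Fact p.Prime] (E : ED p r f S K) {N : ℕ} (hN0 : N ≠ 0)
    (hN : p ^ (Nat.card S).factorization p ∣ N) (θ : rootsOfUnity N K ≃* rootsOfUnity N ℂ) : FD p r f S where
  F := FF p E.E θ
  conj g x := by
    by_cases hx : IsP p x
    · rw [FF_of hx, FF_of ((isP_conj g).2 hx), Fs, Fs, E.conj g x hx]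
    · rw [FF, FF, if_neg hx, if_neg fun h => hx ((isP_conj g).1 h)]
  lin P := by
    obtain ⟨n, l, hl⟩ := E.lin P
    have hr : ∀ i (x : (P : Subgroup S)), l i x ∈ rootsOfUnity N K := by
      intro i x
      rw [mem_rootsOfUnity]
      have h2 : x ^ N = 1 := by
        obtain ⟨c, rfl⟩ := hN
        rw [pow_mul, ← Sylow.card_eq_multiplicity P, pow_card_eq_one', one_pow]
      rw [← map_pow, h2, map_one]
    refine ⟨n, fun i => (rootsOfUnity N ℂ).subtype.comp (θ.toMonoidHom.comp ((l i).codRestrict _ (hr i))), fun x => ?_⟩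
    have hx : IsP p (x : S) := by
      obtain ⟨k, hk⟩ := P.2 x
      exact ⟨k, congrArg Subtype.val hk⟩
    rw [FF_of hx, Fs, hl x, Multiset.map_map]
    refine Finset.sum_congr rfl fun i _ => ?_
    exact iota_coe θ ⟨l i x, hr i x⟩
  frob x hx := by
    rw [FF_of hx, FF_of (IsP.pow hx _), Fs, Fs, E_pow E hx, E.frob x hx]

theorem fd_F [Finite S] [Fact p.Prime] (E : ED p r f S K) {N : ℕ} (hN0 : N ≠ 0)
    (hN : p ^ (Nat.card S).factorization p ∣ N) (θ : rootsOfUnity N K ≃* rootsOfUnity N ℂ) {x : S} (hx : IsP p x) :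
    (fd E hN0 hN θ).F x = Fs E.E θ x := FF_of hx

end

theorem Fs_pow {p r f : ℕ} {S : Type u} [Group S] {K : Type v} [Field K] [Finite S] [Fact p.Prime]
    (E : ED p r f S K) {N : ℕ} (hN0 : N ≠ 0)
    (hN : p ^ (Nat.card S).factorization p ∣ N) (θ : rootsOfUnity N K ≃* rootsOfUnity N ℂ) {x : S} (hx : IsP p x) (k : ℕ) :
    Fs E.E θ (x ^ k) = ((E.E x).map fun a => iota θ a ^ k).sum := by
  rw [Fs, E_pow E hx, Multiset.map_map]
  refine congrArg Multiset.sum (Multiset.map_congr rfl fun a ha => ?_)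
  exact iota_pow θ hN0 (E_root E hx hN ha) k

/-- **box O.num** -/
theorem exists_fd {p : ℕ} [hp : Fact p.Prime] (hp2 : p ≠ 2) {r f : ℕ} (hr : r.Prime) (hrp : r ≠ p) (hf : 0 < f)
    {S : Type u} [Group S] [Finite S] {K : Type v} [Field K] [CharP K r] [IsAlgClosed K] (E : ED p r f S K) (hy : EY E) :
    ∃ D : FD p r f S, Test D ∧
      (∀ (x y : S) (k : ℕ), IsP p x → IsP p y → E.E x = ((E.E y).map fun a => a ^ k) → D.F x = D.F (y ^ k)) := by
  classical
  obtain ⟨e, he⟩ : ∃ e, orderOf ((r ^ f : ℕ) : ZMod p) = e := ⟨_, rfl⟩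
  set L := (Nat.card S).factorization p + padicValNat p ((r ^ f) ^ e - 1) with hL
  set N := p ^ L with hNdef
  have hN0 : N ≠ 0 := pow_ne_zero _ hp.out.ne_zero
  have hN : p ^ (Nat.card S).factorization p ∣ N := pow_dvd_pow p (Nat.le_add_right _ _)
  have hNz : NeZero N := ⟨hN0⟩
  have hpK : (p : K) ≠ 0 := by
    intro h
    have h1 := (CharP.cast_eq_zero_iff K r p).1 h
    exact hrp ((Nat.prime_dvd_prime_iff_eq hr hp.out).1 h1)
  have hNK : NeZero ((N : ℕ) : K) := ⟨by rw [hNdef, Nat.cast_pow]; exact pow_ne_zero _ hpK⟩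
  have hNC : NeZero ((N : ℕ) : ℂ) := ⟨Nat.cast_ne_zero.2 hN0⟩
  have θ : rootsOfUnity N K ≃* rootsOfUnity N ℂ := mulEquivOfCyclicCardEq (by
    rw [HasEnoughRootsOfUnity.natCard_rootsOfUnity, HasEnoughRootsOfUnity.natCard_rootsOfUnity])
  refine ⟨fd E hN0 hN θ, ?_, ?_⟩
  · intro hpf
    obtain ⟨g, rfl⟩ := hpf
    have hg : p * g / p = g := Nat.mul_div_cancel_left g hp.out.pos
    rw [hg]
    have hq : r ^ (p * g) = (r ^ g) ^ p := by rw [← pow_mul, mul_comm]
    have hprg : ¬ p ∣ r ^ g := fun h =>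
      hrp ((Nat.prime_dvd_prime_iff_eq hp.out hr).1 (hp.out.dvd_of_dvd_pow h)).symm
    have hg0 : g ≠ 0 := by
      rintro rfl
      simp at hf
    have hunit : ((r ^ (p * g) : ℕ) : ZMod p) ≠ 0 := by
      rw [Ne, ZMod.natCast_eq_zero_iff, hq]
      exact fun h => hprg (hp.out.dvd_of_dvd_pow h)
    have hep : e ∣ p - 1 := by
      rw [← he]
      exact orderOf_dvd_of_pow_eq_one (ZMod.pow_card_sub_one_eq_one hunit)
    have he0 : 0 < e := Nat.pos_of_ne_zero (by
      rintro rfl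
      rw [Nat.zero_dvd] at hep
      have := hp.out.two_le
      omega)
    -- `p` divides `q₁ ^ e - 1`
    have hrg2 : 2 ≤ r ^ g := by
      calc 2 ≤ r := hr.two_le
        _ = r ^ 1 := (pow_one r).symm
        _ ≤ r ^ g := Nat.pow_le_pow_right hr.pos (Nat.pos_of_ne_zero hg0)
    have h1 : p ∣ (r ^ g) ^ e - 1 := by
      have h2 : (((r ^ g) ^ e : ℕ) : ZMod p) = 1 := by
        have h3 := pow_orderOf_eq_one ((r ^ (p * g) : ℕ) : ZMod p)
        rw [he, hq, Nat.cast_pow, ZMod.pow_card, ← Nat.cast_pow] at h3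
        exact h3
      rw [← ZMod.natCast_eq_zero_iff, Nat.cast_sub (Nat.one_le_pow _ _ (by omega)), h2, Nat.cast_one, sub_self]
    have hY : 1 < (r ^ g) ^ e := Nat.one_lt_pow he0.ne' (by omega)
    have h3 := padicValNat.pow_sub_pow (hp.out.odd_of_ne_two hp2) hY h1
      (fun h => hprg (hp.out.dvd_of_dvd_pow h)) hp.out.ne_zero
    rw [one_pow, padicValNat.self hp.out.one_lt] at h3
    have h4 : ((r ^ g) ^ e) ^ p = (r ^ (p * g)) ^ e := by
      simp only [← pow_mul]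
      congr 1
      ring
    rw [h4] at h3
    have h5 : 1 ≤ padicValNat p ((r ^ g) ^ e - 1) := one_le_padicValNat_of_dvd (by omega) h1
    obtain ⟨m, hm⟩ : ∃ m, padicValNat p ((r ^ (p * g)) ^ e - 1) = m + 1 := ⟨padicValNat p ((r ^ g) ^ e - 1), h3⟩
    have hm1 : 1 ≤ m := by omega
    have hne : (r ^ (p * g)) ^ e - 1 ≠ 0 := by
      intro h
      rw [h, padicValNat_zero_right] at hm
      omega
    have hd1 : p ^ (m + 1) ∣ (r ^ (p * g)) ^ e - 1 := (padicValNat_dvd_iff_le hne).2 hm.ge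
    have hd2 : ¬ p ^ (m + 2) ∣ (r ^ (p * g)) ^ e - 1 := fun h => by
      have := (padicValNat_dvd_iff_le hne).1 h
      omega
    have hdN : p ^ (m + 1) ∣ N := by
      rw [hNdef, hL, hm]
      exact pow_dvd_pow p (Nat.le_add_left _ _)
    have hmK : NeZero ((p ^ (m + 1) : ℕ) : K) := ⟨by rw [Nat.cast_pow]; exact pow_ne_zero _ hpK⟩
    have hmz : NeZero (p ^ (m + 1)) := ⟨pow_ne_zero _ hp.out.ne_zero⟩
    obtain ⟨ω, hω⟩ := HasEnoughRootsOfUnity.exists_primitiveRoot K (p ^ (m + 1))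
    obtain ⟨y, s, r₀, hyP, hyE, hr0, hcnt⟩ := hy ⟨g, rfl⟩ e m ω he0 he hm1 hd1 hd2 hω
    refine ⟨y, hyP, ?_⟩
    set ζ := iota θ ω with hζdef
    have hζ : IsPrimitiveRoot ζ (p ^ (m + 1)) := iota_prim θ hN0 hdN hω
    have hωN : ω ^ N = 1 := by
      obtain ⟨c, hc⟩ := hdN
      rw [hc, pow_mul, hω.pow_eq_one, one_pow]
    have hF : ∀ k : ℕ, (fd E hN0 hN θ).F (y ^ k) = (s.map fun j => ζ ^ (k * j)).sum := by
      intro k
      rw [fd_F E hN0 hN θ (IsP.pow hyP k), Fs_pow E hN0 hN θ hyP, hyE, Multiset.map_map]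
      refine congrArg Multiset.sum (Multiset.map_congr rfl fun j _ => ?_)
      simp only [Function.comp_apply]
      rw [iota_pow θ hN0 hωN, ← pow_mul, mul_comm]
    -- `q` acts trivially
    have hfr : ∀ t : ℕ, (fd E hN0 hN θ).F (y ^ (r ^ g * (r ^ (p * g)) ^ t)) = (fd E hN0 hN θ).F (y ^ r ^ g) := by
      intro t
      induction t with
      | zero => rw [pow_zero, mul_one]
      | succ t ih => rw [← ih, pow_succ, ← mul_assoc, pow_mul y, (fd E hN0 hN θ).frob _ (IsP.pow hyP _)]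
    obtain ⟨u, hu, hκ⟩ := kappa (q1 := r ^ g) (e := e) (m := m) hp2 hprg (by rw [← hq]; exact he) (by rw [← hq]; exact hd1)
      (by rw [← hq]; exact hd2)
    rintro ⟨z, hz, hzz⟩
    rw [← hfr (e - 1), hq, hκ, hF, show y = y ^ 1 from (pow_one y).symm, hF] at hzz
    -- the family
    obtain ⟨n, k, hk⟩ : ∃ (n : ℕ) (k : Fin n → ℕ), s = (Finset.univ : Finset (Fin n)).val.map k := by
      refine ⟨s.toList.length, s.toList.get, ?_⟩
      rw [Fin.univ_val_map, List.ofFn_get, Multiset.coe_toList]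
    have hcong : ∑ i, ζ ^ k i - ∑ i, ζ ^ ((1 + p ^ m * u) * k i) = (p : ℂ) * (-z) := by
      have h6 : (s.map fun j => ζ ^ ((1 + p ^ m * u) * j)).sum = ∑ i, ζ ^ ((1 + p ^ m * u) * k i) := by
        rw [hk, Multiset.map_map]
        rfl
      have h7 : (s.map fun j => ζ ^ (1 * j)).sum = ∑ i, ζ ^ k i := by
        rw [hk, Multiset.map_map]
        refine Finset.sum_congr rfl fun i _ => ?_
        simp only [Function.comp_apply, one_mul]
      rw [h6, h7] at hzz
      rw [mul_neg, ← hzz, neg_sub]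
    have hc1 := count_dvd hζ hm1 hu Finset.univ k hz.neg hcong hp2 hr0
    have e1 : (s.filter fun k => k % p ^ m = r₀ % p ^ m).card =
        (Finset.univ.filter fun i => k i % p ^ m = r₀ % p ^ m).card := by
      rw [hk, Multiset.filter_map, Multiset.card_map]
      rfl
    rcases hcnt with h8 | ⟨h5p, h8⟩
    · rw [e1] at h8
      exact h8 hc1
    · have hc2 := sum_dvd hζ hm1 hu Finset.univ k hz.neg hcong h5p hr0
      apply h8
      have e2 : ((s.filter fun k => k % p ^ m = r₀ % p ^ m).map fun k => k % p ^ (m + 1) / p ^ m).sum =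
          ∑ i ∈ Finset.univ.filter (fun i => k i % p ^ m = r₀ % p ^ m), (k i % p ^ (m + 1) / p ^ m) := by
        rw [hk, Multiset.filter_map, Multiset.map_map]
        rfl
      rw [e2]
      have e3 : ∀ j : ℕ, j % p ^ (m + 1) / p ^ m ≡ j / p ^ m [MOD p] := by
        intro j
        have h9 : j % p ^ (m + 1) / p ^ m = j / p ^ m % p := by
          rw [pow_succ, Nat.mod_mul_right_div_self]
        rw [h9]
        exact Nat.mod_modEq _ _
      rw [← ZMod.natCast_eq_zero_iff, Nat.cast_sum] at hc2 ⊢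
      rw [← hc2]
      exact Finset.sum_congr rfl fun i _ => (ZMod.natCast_eq_natCast_iff _ _ _).2 (e3 _)
  · intro x y k hx hy' hxy
    rw [fd_F E hN0 hN θ hx, fd_F E hN0 hN θ (IsP.pow hy' k), Fs, Fs, hxy, E_pow E hy']

end Cfsg.Agent.H234.HT
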