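import Cfsg.Agent.H234.HT.Ed
import Cfsg.Agent.H234.HT.LemB3

/-!
# S4933, part (O): `exists_fd` with the three criteria (helper234)

`exists_fd3` : from the eigenvalues (`ED`) and the element (`EYc`) to the class function (`FD`) with `Test`.
-/

set_option autoImplicit false

open Subgroup

namespace Cfsg.Agent.H234.HT

open Cfsg Cfsg.Agent.H37.HT

universe u v

/-- the element `y` with the three criteria -/
def EYc {p r f : ℕ} {S : Type u} [Group S] {K : Type v} [Field K] (E : ED p r f S K) : Prop :=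
  p ∣ f → ∀ (e m : ℕ) (ω : K), 0 < e → orderOf ((r ^ f : ℕ) : ZMod p) = e → 1 ≤ m →
    p ^ (m + 1) ∣ (r ^ f) ^ e - 1 → ¬ p ^ (m + 2) ∣ (r ^ f) ^ e - 1 → IsPrimitiveRoot ω (p ^ (m + 1)) →
    ∃ (y : S) (ι : Type) (_ : Fintype ι) (ex : ι → ℕ) (c : ℕ), IsP p y ∧
      E.E y = (Finset.univ : Finset ι).val.map (fun i => ω ^ (c * ex i)) ∧ c.Coprime p ∧ Cnt3 p (m + 1) ex

/-- **box O.num, general form** -/
theorem exists_fd3 {p : ℕ} [hp : Fact p.Prime] (hp2 : p ≠ 2) {r f : ℕ} (hr : r.Prime) (hrp : r ≠ p) (hf : 0 < f)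
    {S : Type u} [Group S] [Finite S] {K : Type v} [Field K] [CharP K r] [IsAlgClosed K] (E : ED p r f S K) (hy : EYc E) :
    ∃ D : FD p r f S, Test D ∧
      (∀ (x y : S) (k : ℕ), IsP p x → IsP p y → E.E x = ((E.E y).map fun a => a ^ k) → D.F x = D.F (y ^ k)) := by
  classical
  obtain ⟨e, he⟩ : ∃ e, orderOf ((r ^ f : ℕ) : ZMod p) = e := ⟨_, rfl⟩
  set L := (Nat.card S).factorization p + padicValNat p ((r ^ f) ^ e - 1) with hL
  set N := p ^ L with hNdef
  have hN0 : N ≠ 0 := pow_ne_zero _ hp.out.ne_zero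
  have hN : p ^ (Nat.card S).factorization p ∣ N := pow_dvd_pow p (Nat.le_add_right _ _)
  have hNz : NeZero N := ⟨hN0⟩
  have hpK : (p : K) ≠ 0 := by
    intro h
    have h1 := (CharP.cast_eq_zero_iff K r p).1 h
    exact hrp ((Nat.prime_dvd_prime_iff_eq hr hp.out).1 h1)
  have hNK : NeZero ((N : ℕ) : K) := ⟨by rw [hNdef, Nat.cast_pow]; exact pow_ne_zero _ hpK⟩
  have hNC : NeZero ((N : ℕ) : ℂ) := ⟨Nat.cast_ne_zero.2 hN0⟩
  have θ : rootsOfUnity N K ≃* rootsOfUnity N ℂ := mulEquivOfCyclicCardEq (by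
    rw [HasEnoughRootsOfUnity.natCard_rootsOfUnity, HasEnoughRootsOfUnity.natCard_rootsOfUnity])
  refine ⟨fd E hN0 hN θ, ?_, ?_⟩
  · intro hpf
    obtain ⟨g, rfl⟩ := hpf
    have hg : p * g / p = g := Nat.mul_div_cancel_left g hp.out.pos
    rw [hg]
    have hq : r ^ (p * g) = (r ^ g) ^ p := by rw [← pow_mul, mul_comm]
    have hprg : ¬ p ∣ r ^ g := fun h =>
      hrp ((Nat.prime_dvd_prime_iff_eq hp.out hr).1 (hp.out.dvd_of_dvd_pow h)).symm
    have hg0 : g ≠ 0 := by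
      rintro rfl
      simp at hf
    have hunit : ((r ^ (p * g) : ℕ) : ZMod p) ≠ 0 := by
      rw [Ne, ZMod.natCast_eq_zero_iff, hq]
      exact fun h => hprg (hp.out.dvd_of_dvd_pow h)
    have hep : e ∣ p - 1 := by
      rw [← he]
      exact orderOf_dvd_of_pow_eq_one (ZMod.pow_card_sub_one_eq_one hunit)
    have he0 : 0 < e := Nat.pos_of_ne_zero (by
      rintro rfl
      rw [Nat.zero_dvd] at hep
      have := hp.out.two_le
      omega)
    -- `p` divides `q₁ ^ e - 1`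
    have hrg2 : 2 ≤ r ^ g := by
      calc 2 ≤ r := hr.two_le
        _ = r ^ 1 := (pow_one r).symm
        _ ≤ r ^ g := Nat.pow_le_pow_right hr.pos (Nat.pos_of_ne_zero hg0)
    have h1 : p ∣ (r ^ g) ^ e - 1 := by
      have h2 : (((r ^ g) ^ e : ℕ) : ZMod p) = 1 := by
        have h3 := pow_orderOf_eq_one ((r ^ (p * g) : ℕ) : ZMod p)
        rw [he, hq, Nat.cast_pow, ZMod.pow_card, ← Nat.cast_pow] at h3
        exact h3
      rw [← ZMod.natCast_eq_zero_iff, Nat.cast_sub (Nat.one_le_pow _ _ (by omega)), h2, Nat.cast_one, sub_self]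
    have hY : 1 < (r ^ g) ^ e := Nat.one_lt_pow he0.ne' (by omega)
    have h3 := padicValNat.pow_sub_pow (hp.out.odd_of_ne_two hp2) hY h1
      (fun h => hprg (hp.out.dvd_of_dvd_pow h)) hp.out.ne_zero
    rw [one_pow, padicValNat.self hp.out.one_lt] at h3
    have h4 : ((r ^ g) ^ e) ^ p = (r ^ (p * g)) ^ e := by
      simp only [← pow_mul]
      congr 1
      ring
    rw [h4] at h3
    have h5 : 1 ≤ padicValNat p ((r ^ g) ^ e - 1) := one_le_padicValNat_of_dvd (by omega) h1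
    obtain ⟨m, hm⟩ : ∃ m, padicValNat p ((r ^ (p * g)) ^ e - 1) = m + 1 := ⟨padicValNat p ((r ^ g) ^ e - 1), h3⟩
    have hm1 : 1 ≤ m := by omega
    have hne : (r ^ (p * g)) ^ e - 1 ≠ 0 := by
      intro h
      rw [h, padicValNat_zero_right] at hm
      omega
    have hd1 : p ^ (m + 1) ∣ (r ^ (p * g)) ^ e - 1 := (padicValNat_dvd_iff_le hne).2 hm.ge
    have hd2 : ¬ p ^ (m + 2) ∣ (r ^ (p * g)) ^ e - 1 := fun h => by
      have := (padicValNat_dvd_iff_le hne).1 h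
      omega
    have hdN : p ^ (m + 1) ∣ N := by
      rw [hNdef, hL, hm]
      exact pow_dvd_pow p (Nat.le_add_left _ _)
    have hmK : NeZero ((p ^ (m + 1) : ℕ) : K) := ⟨by rw [Nat.cast_pow]; exact pow_ne_zero _ hpK⟩
    have hmz : NeZero (p ^ (m + 1)) := ⟨pow_ne_zero _ hp.out.ne_zero⟩
    obtain ⟨ω, hω⟩ := HasEnoughRootsOfUnity.exists_primitiveRoot K (p ^ (m + 1))
    obtain ⟨y, ι, _, ex, c, hyP, hyE, hcop, hcnt⟩ := hy ⟨g, rfl⟩ e m ω he0 he hm1 hd1 hd2 hω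
    refine ⟨y, hyP, ?_⟩
    set ζ := iota θ ω with hζdef
    have hζ : IsPrimitiveRoot ζ (p ^ (m + 1)) := iota_prim θ hN0 hdN hω
    have hζc : IsPrimitiveRoot (ζ ^ c) (p ^ (m + 1)) := hζ.pow_of_coprime c (hcop.pow_right _)
    have hωN : ω ^ N = 1 := by
      obtain ⟨c, hc⟩ := hdN
      rw [hc, pow_mul, hω.pow_eq_one, one_pow]
    have hF : ∀ k : ℕ, (fd E hN0 hN θ).F (y ^ k) = ∑ i, (ζ ^ c) ^ (k * ex i) := by
      intro k
      rw [fd_F E hN0 hN θ (IsP.pow hyP k), Fs_pow E hN0 hN θ hyP, hyE, Multiset.map_map]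
      refine Finset.sum_congr rfl fun j _ => ?_
      simp only [Function.comp_apply]
      rw [iota_pow θ hN0 hωN, ← pow_mul, ← pow_mul]
      congr 1
      ring
    -- `q` acts trivially
    have hfr : ∀ t : ℕ, (fd E hN0 hN θ).F (y ^ (r ^ g * (r ^ (p * g)) ^ t)) = (fd E hN0 hN θ).F (y ^ r ^ g) := by
      intro t
      induction t with
      | zero => rw [pow_zero, mul_one]
      | succ t ih => rw [← ih, pow_succ, ← mul_assoc, pow_mul y, (fd E hN0 hN θ).frob _ (IsP.pow hyP _)]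
    obtain ⟨u, hu, hκ⟩ := kappa (q1 := r ^ g) (e := e) (m := m) hp2 hprg (by rw [← hq]; exact he) (by rw [← hq]; exact hd1)
      (by rw [← hq]; exact hd2)
    rintro ⟨z, hz, hzz⟩
    rw [← hfr (e - 1), hq, hκ, hF, show y = y ^ 1 from (pow_one y).symm, hF] at hzz
    refine not_cong hp2 hm1 hcnt hζc hu hz.neg ?_
    rw [mul_neg, ← hzz, neg_sub]
    simp only [one_mul]
  · intro x y k hx hy' hxy
    rw [fd_F E hN0 hN θ hx, fd_F E hN0 hN θ (IsP.pow hy' k), Fs, Fs, hxy, E_pow E hy']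

end Cfsg.Agent.H234.HT
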