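import Cfsg.Agent.H234.HT.ExcRow
import Cfsg.Agent.H892.HT.Disp

/-!
# S4933, part (O), exceptional groups: from `row_mat` to the fields of `OAb` (helper234)

* `row_q`  : the row of a matrix group over `F`, `|F| = q ^ d`;
* `congr`  : rows are invariant under isomorphisms.
-/

set_option autoImplicit false

open Subgroup

namespace Cfsg.Agent.H234.HT

open Cfsg Cfsg.Agent.H37.HT Cfsg.Agent.H316.HT Cfsg.Agent.H892.HT

theorem abSyl_of {p : ℕ} {K : Type} [Group K] (h : Ab p K) : AbSyl p K := fun P x hx y hy =>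
  congrArg Subtype.val ((h P).is_comm.comm ⟨x, hx⟩ ⟨y, hy⟩)

theorem row_congr {p : ℕ} {K S : Type} [Group K] [Group S] (e : K ≃* S) (h : Row p S) : Row p K :=
  fun A _ _ N _ ⟨g⟩ => h A N ⟨g.trans e⟩

theorem ab_congr {p : ℕ} [Fact p.Prime] {K S : Type} [Group K] [Group S] [Finite K] [Finite S] (e : K ≃* S) (h : Ab p K) :
    Ab p S := by
  intro P
  have h1 := h (P.mapSurjective (f := e.symm.toMonoidHom) e.symm.surjective)
  constructor
  constructor
  rintro ⟨a, ha⟩ ⟨b, hb⟩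
  apply Subtype.ext
  have h2 := congrArg Subtype.val (h1.is_comm.comm
    (⟨e.symm a, ⟨a, ha, rfl⟩⟩ : (P.mapSurjective (f := e.symm.toMonoidHom) e.symm.surjective : Subgroup K))
    ⟨e.symm b, ⟨b, hb, rfl⟩⟩)
  have h3 : e.symm a * e.symm b = e.symm b * e.symm a := h2
  show a * b = b * a
  apply e.symm.injective
  rw [map_mul, map_mul, h3]

theorem exists_rf {F : Type} [Field F] [Fintype F] {q d : ℕ} (hq : IsPrimePow q) (hF : Fintype.card F = q ^ d) :
    ∃ r f : ℕ, r.Prime ∧ CharP F r ∧ 0 < f ∧ q = r ^ f := by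
  obtain ⟨r, f, hr, hf, rfl⟩ := hq
  have hr' : r.Prime := Nat.prime_iff.2 hr
  refine ⟨r, f, hr', ?_, hf, rfl⟩
  obtain ⟨s, hs⟩ := CharP.exists F
  have hsp : s.Prime := CharP.char_is_prime F s
  have hfs : Fact s.Prime := ⟨hsp⟩
  obtain ⟨n, -, hn⟩ := FiniteField.card F s
  have h1 : s ∣ (r ^ f) ^ d := by
    rw [← hF, hn]
    exact dvd_pow_self s n.ne_zero
  have h2 : s = r := (Nat.prime_dvd_prime_iff_eq hsp hr').1 (hsp.dvd_of_dvd_pow (hsp.dvd_of_dvd_pow h1))
  rwa [h2] at hs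

theorem row_q {ι : Type} [Fintype ι] [DecidableEq ι] {F : Type} [Field F] [Fintype F] {G : Subgroup (GL ι F)}
    {p q d : ℕ} [hp : Fact p.Prime] (hp2 : p ≠ 2) (hq : IsPrimePow q) (hF : Fintype.card F = q ^ d) (hpq : ¬ p ∣ q)
    (hab : Ab p G) (h : HasElt3 p G q)
    (hO : ∀ r f : ℕ, r.Prime → CharP F r → 0 < f → q = r ^ f → OutD p r f G) : Row p G := by
  obtain ⟨r, f, hr, hc, hf, rfl⟩ := exists_rf hq hF
  have hrp : r ≠ p := by
    rintro rfl
    exact hpq (dvd_pow_self r hf.ne')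
  exact row_mat hp2 hr hrp hf (abSyl_of hab) h (hO r f hr hc hf rfl)

end Cfsg.Agent.H234.HT
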