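import Mathlib.LinearAlgebra.Matrix.Charpoly.Basic
import Mathlib.LinearAlgebra.Matrix.GeneralLinearGroup.Defs
import Mathlib.Data.Nat.Factorization.Defs
import Cfsg.Prelude.Def_KGroupFacts

/-!
# S4933, part (O), matrix groups: the data about the automorphisms (helper234)

`OutD p r f G` : `G` a group of matrices over the finite field `F` of characteristic `r`, `q = r ^ f`
(`|F| = q` for the untwisted groups and `²F₄(q)`, `q ^ 2` for `²E₆(q)`, `q ^ 3` for `³D₄(q)`):

* `out`  : `|Out G|_p ≤ f_p`;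
* `frob` : the characteristic polynomials are invariant under `a ↦ a ^ q`;
* `phi`  : an automorphism `φ` (the field automorphism `a ↦ a ^ r`) with `charpoly (φ x) = (charpoly x) ^ σ_r`,
  `φ ^ (k f)` inner for a `k` prime to `p`, and `charpoly (g φ g⁻¹ x) = charpoly (φ x)` for all automorphisms `g`.
-/

set_option autoImplicit false

open Polynomial

namespace Cfsg.Agent.H234.HT

open Cfsg

/-- the characteristic polynomial of an element -/
noncomputable def cp {ι : Type} [Fintype ι] [DecidableEq ι] {F : Type} [Field F] {G : Subgroup (GL ι F)} (x : G) : F[X] :=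
  (((x : GL ι F) : Matrix ι ι F)).charpoly

structure OutD (p r f : ℕ) {ι : Type} [Fintype ι] [DecidableEq ι] {F : Type} [Field F] (G : Subgroup (GL ι F)) : Prop where
  out : (Nat.card (Out ↥G)).factorization p ≤ f.factorization p
  frob : ∀ s : F →+* F, (∀ a, s a = a ^ r ^ f) → ∀ x : ↥G, (cp x).map s = cp x
  phi : ∀ s : F →+* F, (∀ a, s a = a ^ r) → ∃ φ : MulAut ↥G, (∀ x : ↥G, cp (φ x) = (cp x).map s) ∧
    (∃ k : ℕ, ¬ p ∣ k ∧ φ ^ (k * f) ∈ Inn ↥G) ∧ ∀ (g : MulAut ↥G) (x : ↥G), cp (g (φ (g⁻¹ x))) = cp (φ x)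

end Cfsg.Agent.H234.HT
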