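import Cfsg.Agent.H37.HT.Main
import Cfsg.Agent.H234.HT.EdExc
import Cfsg.Agent.H234.HT.OutD

/-!
# S4933, part (O): the row for a group of matrices (helper234)

`row_mat` : `AbSyl p G`, `OutD p r f G`, `HasElt3 p G (r ^ f)` imply `Row p G`.
-/

set_option autoImplicit false

open Subgroup Polynomial

namespace Cfsg.Agent.H234.HT

open Cfsg Cfsg.Agent.H37.HT Cfsg.Agent.H316.HT

/-- **the row of a matrix group** -/
theorem row_mat {ι : Type} [Fintype ι] [DecidableEq ι] {F : Type} [Field F] [Finite F] {G : Subgroup (GL ι F)}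
    {p r f : ℕ} [hp : Fact p.Prime] (hp2 : p ≠ 2) (hr : r.Prime) [CharP F r] (hrp : r ≠ p) (hf : 0 < f)
    (hab : AbSyl p G) (h : HasElt3 p G (r ^ f)) (hO : OutD p r f G) : Row p G := by
  have hrf : Fact r.Prime := ⟨hr⟩
  have hKr : CharP (AlgebraicClosure F) r := charP_of_injective_algebraMap (algebraMap F (AlgebraicClosure F)).injective r
  have hfr : ∀ x ∈ G, (x : Matrix ι ι F).charpoly.map (iterateFrobenius F r f) = (x : Matrix ι ι F).charpoly :=
    fun x hx => hO.frob (iterateFrobenius F r f) (fun a => iterateFrobenius_def r f a) ⟨x, hx⟩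
  obtain ⟨φ, hφ, hφf, hc⟩ := hO.phi (frobenius F r) (fun a => frobenius_def r a)
  obtain ⟨E, hE, hEd⟩ : ∃ E : ED p r f G (AlgebraicClosure F),
      (∀ x : G, E.E x = ((cp x).map (algebraMap F (AlgebraicClosure F))).roots) ∧ EYc E :=
    ⟨ed (algebraMap F (AlgebraicClosure F)) G hrp hab hfr, fun x => rfl, eyc_of hrp hab hfr h⟩
  refine row_of_ed' hr hrp hf hab hO.out E (exists_fd3 hp2 hr hrp hf E hEd) φ ?_ hφf ?_
  · intro x _
    have h1 : (frobenius (AlgebraicClosure F) r : AlgebraicClosure F → AlgebraicClosure F) = fun a => a ^ r :=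
      funext fun a => frobenius_def r a
    have h2 : (algebraMap F (AlgebraicClosure F)).comp (frobenius F r) =
        (frobenius (AlgebraicClosure F) r).comp (algebraMap F (AlgebraicClosure F)) := by
      ext a
      simp only [RingHom.comp_apply, frobenius_def, map_pow]
    rw [hE, hE, hφ, Polynomial.map_map, h2, ← Polynomial.map_map, roots_map_of, h1]
  · intro g x _
    rw [hE, hE, hc]

end Cfsg.Agent.H234.HT
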