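import Cfsg.Agent.H234.HT.ExcCommon
import Cfsg.Agent.H566.HT.TDElt
import Cfsg.Agent.H566.HT.TDOut
import Cfsg.Agent.H371.HT.Three

/-!
# S4933, part (O): the field `OAb.d4t` (helper234)
-/

set_option autoImplicit false

namespace Cfsg.Agent.H234.HT

open Cfsg Cfsg.Agent.H37.HT Cfsg.Agent.H316.HT Cfsg.Agent.H892.HT

/-- a prime `≠ 2, 3` is at least `5` -/
theorem five_le {p : ℕ} (hp : p.Prime) (h2 : p ≠ 2) (h3 : p ≠ 3) : 5 ≤ p := by
  have h1 := hp.two_le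
  have h4 : p ≠ 4 := by rintro rfl; exact absurd hp (by norm_num)
  omega

theorem not_dvd_pow {p q n : ℕ} (hp : p.Prime) (h : ¬ p ∣ q) : ¬ p ∣ q ^ n := fun h1 => h (hp.dvd_of_dvd_pow h1)

theorem d4t_ab (p : ℕ) [hp : Fact p.Prime] (F : Type) [Field F] [Fintype F] (q : ℕ) (hp2 : p ≠ 2) (hq : IsPrimePow q)
    (hF : Fintype.card F = q ^ 3) (hpq : ¬ p ∣ q) (hab : Ab p (Lie.twistedD4 F q)) (hpG : p ∣ Nat.card (Lie.twistedD4 F q)) :
    Row p (Lie.twistedD4 F q) := by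
  have hp3 : p ≠ 3 := by
    rintro rfl
    exact Cfsg.Agent.H371.HT.not_ab_twD4 hq hF (by rw [hF]; exact not_dvd_pow Nat.prime_three hpq) hab
  have h5 := five_le hp.out hp2 hp3
  refine row_q hp2 hq hF hpq hab (Cfsg.Agent.H566.HT.elt5 hq hF hp.out h5 hpq hpG).three ?_
  rintro r f hr - hf rfl
  exact Cfsg.Agent.H566.HT.outD_td4 hr hf hF hp.out h5

end Cfsg.Agent.H234.HT
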