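import Cfsg.Agent.H234.HT.ExcCommon
import Cfsg.Agent.H654.HT.HasTwF4
import Cfsg.Agent.H371.HT.OutTwF
import Cfsg.Agent.H371.HT.Three

/-!
# S4933, part (O): the field `OAb.f4t` (helper234)
-/

set_option autoImplicit false

namespace Cfsg.Agent.H234.HT

open Cfsg Cfsg.Agent.H37.HT Cfsg.Agent.H316.HT Cfsg.Agent.H892.HT

theorem f4t_ab (p : ℕ) [hp : Fact p.Prime] (hp2 : p ≠ 2) (K : Type) [Group K] [Finite K] (hK : Lie.Iso2F4 K) (hab : Ab p K)
    (hpK : p ∣ Nat.card K) : Row p K := by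
  have hp3 : p ≠ 3 := by
    rintro rfl
    exact Cfsg.Agent.H371.HT.not_ab_iso2F4 hK hab
  obtain ⟨F, i1, i2, m, hm, hF, ⟨e⟩⟩ := hK
  have h5 : 5 ≤ p := by
    have h1 := hp.out.two_le
    have h4 : p ≠ 4 := by rintro rfl; exact absurd hp.out (by norm_num)
    omega
  refine row_congr e ?_
  have hpq : ¬ p ∣ 2 ^ (2 * m + 1) := fun h => hp2 ((Nat.prime_dvd_prime_iff_eq hp.out Nat.prime_two).1 (hp.out.dvd_of_dvd_pow h))
  have hch : CharP F 2 := Cfsg.Agent.H371.HT.charP_of hF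
  exact row_mat hp2 Nat.prime_two hp2.symm (Nat.succ_pos _) (abSyl_of (ab_congr e hab))
    (Cfsg.Agent.H654.HT.hasElt_twF4 h5 hF (by rw [← Nat.card_congr e.toEquiv]; exact hpK)).three
    (Cfsg.Agent.H371.HT.outD_twF4 hm hF hp.out)

end Cfsg.Agent.H234.HT
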