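import Cfsg.Agent.H234.HT.ExcCommon
import Cfsg.Agent.H73.HT.Elts
import Cfsg.Agent.H778.HT.OutDU
import Cfsg.Agent.H371.HT.Three
import Cfsg.Agent.S1054
import Cfsg.Agent.S1055

/-!
# S4933, part (O): the fields `g2, f4, e6, e7, e8` of `OAb` (helper234)
-/

set_option autoImplicit false

namespace Cfsg.Agent.H234.HT

open Cfsg Cfsg.Agent.H37.HT Cfsg.Agent.H316.HT Cfsg.Agent.H892.HT

theorem not_comm_of_ab {K : Type} [Group K] (h3 : ¬ Ab 3 K) : ¬ IsMulCommutative K := fun h =>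
  h3 fun _ => ⟨⟨fun a b => Subtype.ext (h.is_comm.comm a.1 b.1)⟩⟩

theorem not_comm_untw {D : Lie.ChevalleyDatum} (hD : D ∈ [Lie.chevG2, Lie.chevF4, Lie.chevE6, Lie.chevE7, Lie.chevE8])
    (F : Type) [Field F] [Fintype F] : ¬ IsMulCommutative ↥(D.group F) := by
  by_cases h3 : 3 ∣ Fintype.card F
  · have hF : ∃ a : F, a ≠ 0 ∧ a ≠ 1 := by
      have h4 : 2 < Fintype.card F := by
        have := Nat.le_of_dvd Fintype.card_pos h3
        omega
      obtain ⟨a, b, c, hab, hac, hbc⟩ := Fintype.two_lt_card_iff.1 h4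
      by_contra hn
      push Not at hn
      have key : ∀ x : F, x = 0 ∨ x = 1 := fun x => or_iff_not_imp_left.2 (hn x)
      rcases key a with rfl | rfl <;> rcases key b with rfl | rfl <;> rcases key c with rfl | rfl <;> simp_all
    simp only [List.mem_cons, List.not_mem_nil, or_false] at hD
    rcases hD with rfl | rfl | rfl | rfl | rfl
    · exact (Cfsg.Agent.S1055.result hF).2
    all_goals exact (Cfsg.Agent.S1054.result _ (by simp)).2
  · exact not_comm_of_ab (Cfsg.Agent.H371.HT.not_ab_untw hD h3)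

theorem untw_ab (p : ℕ) [hp : Fact p.Prime] {D : Lie.ChevalleyDatum}
    (hD : D ∈ [Lie.chevG2, Lie.chevF4, Lie.chevE6, Lie.chevE7, Lie.chevE8]) (F : Type) [Field F] [Fintype F]
    [IsSimpleGroup ↥(D.group F)] (hp2 : p ≠ 2) (hpq : ¬ p ∣ Fintype.card F)
    (hab : Ab p ↥(D.group F)) (hpG : p ∣ Nat.card ↥(D.group F)) : Row p ↥(D.group F) := by
  have hp3 : p ≠ 3 := by
    rintro rfl
    exact Cfsg.Agent.H371.HT.not_ab_untw hD hpq hab
  have h5 : 5 ≤ p := by
    have h1 := hp.out.two_le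
    have h4 : p ≠ 4 := by rintro rfl; exact absurd hp.out (by norm_num)
    omega
  refine row_q (d := 1) hp2 (Fintype.isPrimePow_card_of_field) (pow_one _).symm hpq hab
    (Cfsg.Agent.H73.HT.hasElt3_untw F h5 hpq hD hpG hab) ?_
  intro r f hr _ hf hF
  exact Cfsg.Agent.H778.HT.outD_untw hD (not_comm_untw hD F) h5 hr (by rw [Nat.card_eq_fintype_card, hF])

end Cfsg.Agent.H234.HT
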